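import Cfsg.Agent.H270.Crit.Base
import Cfsg.Agent.H94.Sp.Conway
import Cfsg.Agent.NotCT.Orders
import Cfsg.Agent.Schreier.CoTwoStab
import Cfsg.Agent.S0394

/-!
# `Crit` for Co1, Co2, Co3 (helper270)

For `Co2` : in the stabiliser of the minimal vector `(3, -1²³)` take a permutation `x` of order 23 of `M23`. An element
of the centralizer of `x` fixing `(4, 4, 0²²)` is trivial, so the centralizer has order at most 196560.
-/

set_option autoImplicit false

namespace Cfsg.Agent.H270.Crit

open Subgroup Cfsg Cfsg.Agent.H548.Crit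

theorem crit_co1 {K : Type*} [Group K] [Finite K] (h : Spor.IsoCo1 K) (ho : Nat.card (Cfsg.Out K) ≤ 2) : Crit K := by
  have hn := NotCT.Orders.co1 h
  obtain ⟨e⟩ := h
  exact crit_iso (B := 2097152) (c := 2012774400) e _ hn ho (KFacts.Co1D4.Cent.card_cent1 KFacts.Co1D4.TwoB.k_sq)
    [(2, 21), (3, 9), (5, 4), (7, 2), (11, 1), (13, 1), (23, 1)] (by norm_num) (by decide +kernel)

theorem crit_co3 {K : Type*} [Group K] [Finite K] (h : Spor.IsoCo3 K) (ho : Nat.card (Cfsg.Out K) ≤ 2) : Crit K := by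
  have hn := NotCT.Orders.co3 h
  obtain ⟨e⟩ := h
  have := CTwoTab.Co3.finite_G3
  obtain ⟨w, D⟩ := CTwoTab.Co3.exists_data
  obtain ⟨π, N⟩ := D.ns
  exact crit_iso (B := 2187) (c := 2903040) (e.trans Cfsg.Agent.SporRec.Co3.Model.equivCo3.symm) _ hn ho
    (CTwoTab.Co3.card_of_NS N).le
    [(2, 10), (3, 7), (5, 3), (7, 1), (11, 1), (23, 1)] (by norm_num) (by decide +kernel)

/-! ### Co2 -/

open Cfsg.Agent.SporadicA.Co0Mono Cfsg.Agent.SporadicStructure.Co2RankThree

/-- The vector `(3, -1²³)`. -/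
def vec0 : GolayPt → ℤ := fun p => if p = none then 3 else -1

theorem vec0_mem : vec0 ∈ leechLattice :=
  AddSubgroup.subset_closure (Spor.mem_leechSet_of_const_mod_four vec0 1 (-1) (by decide) (by decide) (by decide))

/-- The vector `(3, -1²³)` in the lattice. -/
def v0 : leechLattice := ⟨vec0, vec0_mem⟩

theorem dt_v0 : dt v0 v0 = 32 := by
  show dotInt vec0 vec0 = 32
  decide

/-- `4 e_∞ + 4 e_i`. -/
def vecW (i : ZMod 23) : GolayPt → ℤ := fun p => if p = none ∨ p = some i then 4 else 0

theorem relation (y : GolayPt → ℤ) (p : GolayPt) :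
    416 * y p = (∑ i : ZMod 23, 104 * y (some i) * vecW i p) +
      4 * (y none - ∑ i : ZMod 23, y (some i)) * ((∑ i : ZMod 23, vecW i p) + 4 * vec0 p) := by
  rcases p with _ | j
  · have h1 : ∀ i : ZMod 23, vecW i none = 4 := fun i => by simp [vecW]
    have h2 : vec0 none = 3 := by simp [vec0]
    simp only [h1, h2, Finset.sum_const, Finset.card_univ, ZMod.card, nsmul_eq_mul]
    rw [← Finset.sum_mul, ← Finset.mul_sum]
    push_cast
    ring
  · have h1 : ∀ i : ZMod 23, vecW i (some j) = if i = j then 4 else 0 := fun i => by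
      simp only [vecW, reduceCtorEq, false_or, Option.some.injEq]
      by_cases h : i = j
      · simp [h]
      · simp [h, Ne.symm h]
    have h2 : vec0 (some j) = -1 := by simp [vec0]
    simp only [h1, h2, mul_ite, mul_zero, Finset.sum_ite_eq', Finset.mem_univ, if_true]
    ring

theorem vecW_mem (i : ZMod 23) : vecW i ∈ leechLattice := by
  refine AddSubgroup.subset_closure (Spor.mem_leechSet_of_const_mod_four (vecW i) 0 0 (by decide) (fun p => ?_) ?_)
  · unfold vecW
    split_ifs <;> decide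
  · revert i
    decide +kernel

/-- `4 e_∞ + 4 e_i` in the lattice. -/
def W (i : ZMod 23) : leechLattice := ⟨vecW i, vecW_mem i⟩

/-- An element fixing `v0` and all `W i` is trivial. -/
theorem fix_all {e : Co0} (h0 : e • v0 = v0) (hW : ∀ i, e • W i = W i) : e = 1 := by
  apply SporadicA.Co0Mono.ext
  intro y
  rw [one_smul]
  have h1 : (416 : ℤ) • y = (∑ i : ZMod 23, (104 * (y : GolayPt → ℤ) (some i)) • W i) +
      (4 * ((y : GolayPt → ℤ) none - ∑ i : ZMod 23, (y : GolayPt → ℤ) (some i))) •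
        ((∑ i : ZMod 23, W i) + (4 : ℤ) • v0) := by
    apply Subtype.ext
    funext p
    have h2 := relation (y : GolayPt → ℤ) p
    simp only [AddSubgroup.coe_add, AddSubgroup.coe_zsmul, AddSubgroup.val_finset_sum, Pi.add_apply, Pi.smul_apply,
      Finset.sum_apply, smul_eq_mul]
    exact h2
  have h3 : e • ((416 : ℤ) • y) = (416 : ℤ) • y := by
    conv_lhs => rw [h1]
    conv_rhs => rw [h1]
    rw [SporadicA.Co0Mono.smul_add, SporadicA.Co0Mono.smul_zsmul, SporadicA.Co0Mono.smul_add,
      SporadicA.Co0Mono.smul_zsmul, h0]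
    have h4 : ∀ (f : ZMod 23 → ℤ), e • (∑ i : ZMod 23, f i • W i) = ∑ i : ZMod 23, f i • W i := by
      intro f
      have := map_sum (toHom e) (fun i => f i • W i) Finset.univ
      rw [toHom_apply] at this
      rw [this]
      refine Finset.sum_congr rfl fun i _ => ?_
      rw [toHom_apply, SporadicA.Co0Mono.smul_zsmul, hW]
    have h5 := h4 fun _ => 1
    simp only [one_zsmul] at h5
    rw [h4, h5]
  rw [SporadicA.Co0Mono.smul_zsmul] at h3
  have h6 : (416 : ℤ) • ((e • y : leechLattice) : GolayPt → ℤ) = (416 : ℤ) • (y : GolayPt → ℤ) :=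
    congrArg Subtype.val h3
  apply Subtype.ext
  funext p
  have h7 := congrFun h6 p
  simp only [Pi.smul_apply, smul_eq_mul] at h7
  omega

theorem perm_W (σ : M24) (h : (σ : Equiv.Perm GolayPt) none = none) {i j : ZMod 23}
    (hij : (σ : Equiv.Perm GolayPt) (some i) = some j) : permCo0 σ • W i = W j := by
  apply Subtype.ext
  rw [permCo0_smul]
  funext p
  show vecW i ((σ : Equiv.Perm GolayPt).symm p) = vecW j p
  have h1 : (σ : Equiv.Perm GolayPt).symm p = none ↔ p = none := by
    rw [Equiv.symm_apply_eq, h]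
  have h2 : (σ : Equiv.Perm GolayPt).symm p = some i ↔ p = some j := by
    rw [Equiv.symm_apply_eq, hij]
  unfold vecW
  simp only [h1, h2]

theorem perm_v0 (σ : M24) (h : (σ : Equiv.Perm GolayPt) none = none) : permCo0 σ • v0 = v0 := by
  apply Subtype.ext
  rw [permCo0_smul]
  funext p
  show vec0 ((σ : Equiv.Perm GolayPt).symm p) = vec0 p
  have h1 : (σ : Equiv.Perm GolayPt).symm p = none ↔ p = none := by
    rw [Equiv.symm_apply_eq, h]
  unfold vec0
  simp only [h1]

theorem exists_sigma : ∃ σ : M24, (σ : Equiv.Perm GolayPt) none = none ∧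
    ∀ i : ZMod 23, ∃ k : ℕ, ((σ ^ k : M24) : Equiv.Perm GolayPt) (some 0) = some i := by
  have : Fact (Nat.Prime 23) := ⟨by norm_num⟩
  obtain ⟨t, ht⟩ := exists_prime_orderOf_dvd_card' (G := Spor.M23) 23
    (by rw [NotCT.Orders.m23 ⟨MulEquiv.refl _⟩]; norm_num)
  have hn : (t : Equiv.Perm GolayPt) none = none := t.2.2
  refine ⟨⟨t, t.2.1⟩, hn, fun i => ?_⟩
  have ho : orderOf (t : Equiv.Perm GolayPt) = 23 := by rw [Subgroup.orderOf_coe, ht]
  have hcard : Fintype.card GolayPt = 24 := by
    rw [Fintype.card_option, ZMod.card]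
  have hcyc : (t : Equiv.Perm GolayPt).IsCycle :=
    Equiv.Perm.isCycle_of_prime_order' (by rw [ho]; norm_num) (by rw [hcard, ho]; norm_num)
  have hsup : (t : Equiv.Perm GolayPt).support.card = 23 := by rw [← hcyc.orderOf, ho]
  have hmem : ∀ j : ZMod 23, (t : Equiv.Perm GolayPt) (some j) ≠ some j := by
    intro j hj
    have h1 : (t : Equiv.Perm GolayPt).support ⊆ (Finset.univ.erase none).erase (some j) := by
      intro p hp
      rw [Equiv.Perm.mem_support] at hp
      rw [Finset.mem_erase, Finset.mem_erase]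
      refine ⟨?_, ?_, Finset.mem_univ _⟩
      · rintro rfl; exact hp hj
      · rintro rfl; exact hp hn
    have h2 := Finset.card_le_card h1
    rw [hsup, Finset.card_erase_of_mem (Finset.mem_erase.2 ⟨by simp, Finset.mem_univ _⟩),
      Finset.card_erase_of_mem (Finset.mem_univ _), Finset.card_univ, hcard] at h2
    omega
  obtain ⟨k, hk⟩ := hcyc.exists_pow_eq (hmem 0) (hmem i)
  exact ⟨k, hk⟩

/-- **A small centralizer in the stabilizer of a minimal vector.** -/
theorem exists_small : ∃ x : MulAction.stabilizer Co0 v0,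
    Nat.card (centralizer ({x} : Set (MulAction.stabilizer Co0 v0))) ≤ 196560 := by
  obtain ⟨σ, hn, hk⟩ := exists_sigma
  let x : MulAction.stabilizer Co0 v0 := ⟨permCo0 σ, MulAction.mem_stabilizer_iff.2 (perm_v0 σ hn)⟩
  refine ⟨x, ?_⟩
  have hfin : {y : GolayPt → ℤ | y ∈ leechLattice ∧ sqNorm y = 32}.Finite :=
    Set.finite_of_ncard_ne_zero (by rw [S0394.result]; norm_num)
  have hncard := S0394.result
  rw [← Nat.card_coe_set_eq] at hncard
  have := hfin.to_subtype
  rw [← hncard]
  have hnorm : sqNorm (W 0 : GolayPt → ℤ) = 32 := by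
    show sqNorm (vecW 0) = 32
    decide +kernel
  refine Nat.card_le_card_of_injective
    (fun c : centralizer ({x} : Set (MulAction.stabilizer Co0 v0)) =>
      (⟨(((c : MulAction.stabilizer Co0 v0) : Co0) • W 0 : leechLattice), SetLike.coe_mem _, by
        rw [sqNorm_smul, hnorm]⟩ : {y : GolayPt → ℤ | y ∈ leechLattice ∧ sqNorm y = 32})) ?_
  intro c d hcd
  have h1 : ((c : MulAction.stabilizer Co0 v0) : Co0) • W 0 = ((d : MulAction.stabilizer Co0 v0) : Co0) • W 0 := by
    simp only [Subtype.mk.injEq] at hcd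
    exact Subtype.ext hcd
  have hc := congrArg Subtype.val (mem_centralizer_singleton_iff.1 (d⁻¹ * c).2)
  have he : (((d⁻¹ * c : centralizer ({x} : Set (MulAction.stabilizer Co0 v0))) : MulAction.stabilizer Co0 v0) : Co0) = 1 := by
    have hcomm : Commute (((d⁻¹ * c : centralizer ({x} : Set (MulAction.stabilizer Co0 v0))) :
        MulAction.stabilizer Co0 v0) : Co0) (permCo0 σ) := hc
    refine fix_all (MulAction.mem_stabilizer_iff.1 (d⁻¹ * c : centralizer ({x} : Set (MulAction.stabilizer Co0 v0))).1.2) ?_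
    intro i
    obtain ⟨k, hk⟩ := hk i
    have h2 : W i = permCo0 σ ^ k • W 0 := by
      rw [← map_pow]
      refine (perm_W (σ ^ k) ?_ hk).symm
      rw [Subgroup.coe_pow]
      exact Function.iterate_fixed hn k
    rw [h2, ← mul_smul, (hcomm.pow_right k).eq, mul_smul]
    congr 1
    show ((((d⁻¹ * c : centralizer ({x} : Set (MulAction.stabilizer Co0 v0))) : MulAction.stabilizer Co0 v0) : Co0) • W 0) = W 0
    have h3 : (((d⁻¹ * c : centralizer ({x} : Set (MulAction.stabilizer Co0 v0))) : MulAction.stabilizer Co0 v0) : Co0) =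
      ((d : MulAction.stabilizer Co0 v0) : Co0)⁻¹ * ((c : MulAction.stabilizer Co0 v0) : Co0) := rfl
    rw [h3, mul_smul, h1, inv_smul_smul]
  have h4 : d⁻¹ * c = 1 := Subtype.ext (Subtype.ext he)
  exact (inv_mul_eq_one.1 h4).symm

theorem crit_co2 {K : Type*} [Group K] [Finite K] (h : Spor.IsoCo2 K) (ho : Nat.card (Cfsg.Out K) ≤ 2) : Crit K := by
  have hn := NotCT.Orders.co2 h
  obtain ⟨e⟩ := h
  obtain ⟨f⟩ := Schreier.CoTwoStab.exists_equiv v0 dt_v0
  obtain ⟨x, hx⟩ := exists_small
  exact crit_iso (B := 262144) (c := 196560) (e.trans f.symm) x hn ho hx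
    [(2, 18), (3, 6), (5, 3), (7, 1), (11, 1), (23, 1)] (by norm_num) (by decide +kernel)

end Cfsg.Agent.H270.Crit
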